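import Groth.Agent.An.H476.Bisect
import Groth.Agent.CohtopA.MVElem
import Groth.Agent.S0460

/-!
# Vanishing of cohomology near closed boxes, by bisection and Mayer-Vietoris

`X` is a compact space with continuous injective coordinates `c : X → (Fin m → ℝ)`, `F` an abelian sheaf on `X`
such that sections near a box extend (near this box) to global sections (`ExtNear F 0`).  Then every
class of positive degree on a neighbourhood of a box vanishes near this box (`van`), in particular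
`H^n(X, F) = 0` for `n > 0` if the image of `c` lies in a box (`subsingleton_HU_top`).
-/

set_option autoImplicit false
universe u

open CategoryTheory TopologicalSpace Opposite Set
open Groth.Agent.CohtopA.MVElem

noncomputable section

namespace Groth.Agent.An.H476.Cube

open Bisect

variable {X : TopCat.{u}} (F : CohTop.Ab X)

/-- Classes of degree `n` near `L` extend, near `L`, to global classes. -/
def ExtNear (n : ℕ) (L : Set X) : Prop :=
  ∀ (W : Opens X), L ⊆ W → ∀ η : CohTop.HU F n W, ∃ (O : Opens X) (h : O ≤ W), L ⊆ O ∧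
    ∃ x : CohTop.HU F n ⊤, CohTop.res F n le_top x = CohTop.res F n h η

variable {F}

/-- Gluing of the vanishing of a class near two closed sets. -/
theorem van_union [NormalSpace X] {n : ℕ} {L₁ L₂ : Set X} (h₁ : IsClosed L₁) (h₂ : IsClosed L₂)
    (h12 : ExtNear F n (L₁ ∩ L₂)) {W : Opens X} (ξ : CohTop.HU F (n + 1) W)
    (H₁ : ∃ (O : Opens X) (h : O ≤ W), L₁ ⊆ O ∧ CohTop.res F (n + 1) h ξ = 0)
    (H₂ : ∃ (O : Opens X) (h : O ≤ W), L₂ ⊆ O ∧ CohTop.res F (n + 1) h ξ = 0) :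
    ∃ (O : Opens X) (h : O ≤ W), L₁ ∪ L₂ ⊆ O ∧ CohTop.res F (n + 1) h ξ = 0 := by
  obtain ⟨W₁, hW₁, hL₁, e₁⟩ := H₁
  obtain ⟨W₂, hW₂, hL₂, e₂⟩ := H₂
  obtain ⟨η, hη⟩ := exists_δ F (A := W₁) (B := W₂) n (CohTop.res F (n + 1) (sup_le hW₁ hW₂) ξ)
    (by rw [res_res]; exact e₁) (by rw [res_res]; exact e₂)
  obtain ⟨O, hO, hLO, x, hx⟩ := h12 (W₁ ⊓ W₂) (fun y hy => ⟨hL₁ hy.1, hL₂ hy.2⟩) η
  obtain ⟨U₁, U₂, hU₁, hU₂, hLU₁, hLU₂, hdis⟩ := normal_separation
    (h₁.sdiff O.isOpen) (h₂.sdiff O.isOpen) (by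
      rw [Set.disjoint_left]
      rintro y ⟨hy1, hyO⟩ ⟨hy2, _⟩
      exact hyO (hLO ⟨hy1, hy2⟩))
  let A : Opens X := W₁ ⊓ (⟨U₁, hU₁⟩ ⊔ O)
  let B : Opens X := W₂ ⊓ (⟨U₂, hU₂⟩ ⊔ O)
  have hA : A ≤ W₁ := inf_le_left
  have hB : B ≤ W₂ := inf_le_left
  have hAB : A ⊓ B ≤ O := by
    rintro y ⟨⟨_, hy1⟩, ⟨_, hy2⟩⟩
    rcases hy1 with hy1 | hy1
    · rcases hy2 with hy2 | hy2
      · exact (Set.disjoint_left.1 hdis hy1 hy2).elim
      · exact hy2
    · exact hy1
  refine ⟨A ⊔ B, sup_le (hA.trans hW₁) (hB.trans hW₂), ?_, ?_⟩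
  · rintro y (hy | hy)
    · refine Or.inl ⟨hL₁ hy, ?_⟩
      by_cases hyO : y ∈ O
      · exact Or.inr hyO
      · exact Or.inl (hLU₁ ⟨hy, hyO⟩)
    · refine Or.inr ⟨hL₂ hy, ?_⟩
      by_cases hyO : y ∈ O
      · exact Or.inr hyO
      · exact Or.inl (hLU₂ ⟨hy, hyO⟩)
  · have e1 : CohTop.res F (n + 1) (sup_le_sup hA hB) (δ F W₁ W₂ n η) =
        CohTop.res F (n + 1) (sup_le (hA.trans hW₁) (hB.trans hW₂)) ξ := by
      rw [hη, res_res]
    rw [← e1, res_δ F hA hB]
    have e2 : CohTop.res F n (inf_le_inf hA hB) η =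
        CohTop.res F n inf_le_left (CohTop.res F n (le_top : A ≤ ⊤) x) := by
      rw [res_res]
      have e3 := congrArg (CohTop.res F n hAB) hx
      rw [res_res, res_res] at e3
      exact e3.symm
    rw [e2]
    exact δ_res_left F n _

section Box

variable {m : ℕ} [CompactSpace X] (c : X → (Fin m → ℝ)) (hc : Continuous c) (hinj : Function.Injective c)

omit [CompactSpace X] in
include hc hinj in
theorem t2Space : T2Space X := T2Space.of_injective_continuous hinj hc

/-- Classes of degree `n + 1` near `L` vanish near `L`. -/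
def Van (F : CohTop.Ab X) (n : ℕ) (L : Set X) : Prop :=
  ∀ (W : Opens X), L ⊆ W → ∀ ξ : CohTop.HU F (n + 1) W,
    ∃ (O : Opens X) (h : O ≤ W), L ⊆ O ∧ CohTop.res F (n + 1) h ξ = 0

include hc hinj in
theorem step (p q : Fin m → ℝ) (hpq : Icc p q ⊆ range c) (n : ℕ)
    (hext : ∀ a b, p ≤ a → a ≤ b → b ≤ q → ExtNear F n (bx c a b))
    (a b : Fin m → ℝ) (ha : p ≤ a) (hab : a ≤ b) (hb : b ≤ q) : Van F n (bx c a b) := by
  have hT2 : T2Space X := t2Space c hc hinj
  intro W hW ξ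
  refine box c hc p q W (fun L => ∃ (O : Opens X) (h : O ≤ W), L ⊆ O ∧ CohTop.res F (n + 1) h ξ = 0)
    ?_ ?_ ?_ a b ha hab hb hW
  · rintro L _ ⟨O, h, hL, e⟩
    exact ⟨O, O.isOpen, hL, fun L' hL' _ => ⟨O, h, hL', e⟩⟩
  · intro a b i s t u ha hab hb hs hst htu hu _ H1 H2
    rw [← bx_union c a b i hst htu]
    refine van_union (isClosed_bx c hc _ _) (isClosed_bx c hc _ _) ?_ ξ H1 H2
    rw [bx_inter c a b i hst htu]
    refine hext _ _ ?_ ?_ ?_
    · intro j
      by_cases hj : j = i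
      · subst hj
        rw [Function.update_self]
        exact (ha j).trans (hs.trans hst)
      · rw [Function.update_of_ne hj]; exact ha j
    · intro j
      by_cases hj : j = i
      · subst hj; simp
      · rw [Function.update_of_ne hj, Function.update_of_ne hj]; exact hab j
    · intro j
      by_cases hj : j = i
      · subst hj
        rw [Function.update_self]
        exact (htu.trans hu).trans (hb j)
      · rw [Function.update_of_ne hj]; exact hb j
  · intro a ha hq hW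
    obtain ⟨ι, V, hV, hsup, hres⟩ := Groth.Agent.S0460.result F W n ξ
    obtain ⟨x, hx⟩ := hpq ⟨ha, hq⟩
    have hxa : x ∈ bx c a a := by rw [bx, Icc_self, mem_preimage, mem_singleton_iff]; exact hx
    have hxW : x ∈ iSup V := by rw [hsup]; exact hW hxa
    obtain ⟨i, hi⟩ := Opens.mem_iSup.1 hxW
    refine ⟨V i, hV i, fun y hy => ?_, hres i⟩
    have : y = x := by
      apply hinj
      rw [bx, Icc_self, mem_preimage, mem_singleton_iff] at hy
      rw [hx, hy]
    rw [this]; exact hi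

include hc hinj in
/-- Classes of positive degree vanish near boxes. -/
theorem van (p q : Fin m → ℝ) (hpq : Icc p q ⊆ range c)
    (h0 : ∀ a b, p ≤ a → a ≤ b → b ≤ q → ExtNear F 0 (bx c a b)) (n : ℕ) :
    ∀ a b, p ≤ a → a ≤ b → b ≤ q → Van F n (bx c a b) := by
  induction n with
  | zero => exact step c hc hinj p q hpq 0 h0
  | succ n ih =>
    refine step c hc hinj p q hpq (n + 1) fun a b ha hab hb W hW η => ?_
    obtain ⟨O, h, hLO, e⟩ := ih a b ha hab hb W hW η
    exact ⟨O, h, hLO, 0, by rw [e, map_zero]⟩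

include hc hinj in
/-- `H^{n+1}(X, F) = 0` when `X` is a closed box and sections near boxes extend. -/
theorem subsingleton_HU_top (p q : Fin m → ℝ) (hpq : p ≤ q) (hr : range c = Icc p q)
    (h0 : ∀ a b, p ≤ a → a ≤ b → b ≤ q → ExtNear F 0 (bx c a b)) (n : ℕ) :
    Subsingleton (CohTop.HU F (n + 1) (⊤ : Opens X)) := by
  refine ⟨fun x y => ?_⟩
  suffices H : ∀ ξ : CohTop.HU F (n + 1) (⊤ : Opens X), ξ = 0 by rw [H x, H y]
  intro ξ
  obtain ⟨O, h, hLO, e⟩ := van c hc hinj p q hr.ge h0 n p q le_rfl hpq le_rfl ⊤ (fun _ _ => trivial) ξ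
  have hO : O = ⊤ := by
    rw [eq_top_iff]
    intro x _
    exact hLO (by rw [bx, mem_preimage, ← hr]; exact mem_range_self x)
  subst hO
  rwa [res_self] at e

end Box

end Groth.Agent.An.H476.Cube
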